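import Cfsg.Agent.S3781
import Mathlib

/-!
# Mann's bound on the order of a `p`-group in terms of its derived length
-/

namespace Cfsg.Agent.H68.PG.Mann

open Cfsg.Agent.S3781
open scoped commutatorElement

variable {G : Type*} [Group G]

/-- Zero-based lower central series of the whole group. -/
abbrev Γ (G : Type*) [Group G] (a : ℕ) : Subgroup G := (⊤ : Subgroup G).lowerCentralSeries a

theorem iterComm_le_Γ {X : Subgroup G} {a : ℕ} (h : X ≤ Γ G a) :
    ∀ j, iterComm X j ≤ Γ G (a + j)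
  | 0 => h
  | j + 1 => Subgroup.commutator_mono (iterComm_le_Γ h j) le_rfl

theorem iterComm_mono {X Y : Subgroup G} (h : X ≤ Y) : ∀ j, iterComm X j ≤ iterComm Y j
  | 0 => h
  | j + 1 => Subgroup.commutator_mono (iterComm_mono h j) le_rfl

theorem iterComm_add (X : Subgroup G) (i : ℕ) :
    ∀ j, iterComm (iterComm X i) j = iterComm X (i + j)
  | 0 => rfl
  | j + 1 => by
    show ⁅iterComm (iterComm X i) j, (⊤ : Subgroup G)⁆ = ⁅iterComm X (i + j), (⊤ : Subgroup G)⁆
    rw [iterComm_add X i j]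

theorem comm_Γ_le {X : Subgroup G} [X.Normal] (a : ℕ) :
    ⁅X, Γ G a⁆ ≤ iterComm X (a + 1) := by
  have h := comm_lcs_le X a 0
  rwa [Nat.zero_add] at h

/-- A subgroup generated by two elements and elements central modulo `M` has its derived group
in `M`, provided the commutator of the two generators lies there too. -/
theorem commutator_le_of_gen {H K M : Subgroup G} [M.Normal] {x y : G}
    (hH : H ≤ Subgroup.closure ({x, y} : Set G) ⊔ K) (hx : x ∈ H) (hy : y ∈ H) (_hK : K ≤ H)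
    (hKH : ⁅H, K⁆ ≤ M) (hxy : ⁅x, y⁆ ∈ M) : ⁅H, H⁆ ≤ M := by
  set f := QuotientGroup.mk' M with hf
  have hone : ∀ g : G, g ∈ M → f g = 1 := fun g hg => (QuotientGroup.eq_one_iff g).2 hg
  have hcomm : ∀ g h : G, ⁅g, h⁆ ∈ M → f g * f h = f h * f g := by
    intro g h hm
    have := hone _ hm
    rw [map_commutatorElement, commutatorElement_eq_one_iff_mul_comm] at this
    exact this
  -- everything in `H` commutes with the generators modulo `M`
  set C : Subgroup (G ⧸ M) := Subgroup.centralizer ((H.map f : Subgroup (G ⧸ M)) : Set (G ⧸ M))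
  have hgen : ∀ g ∈ H, (∀ h ∈ ({x, y} : Set G) ∪ K, f g * f h = f h * f g) →
      ∀ h ∈ H, f g * f h = f h * f g := by
    intro g _ hall h hh
    have hle : H ≤ (Subgroup.centralizer ({f g} : Set (G ⧸ M))).comap f := by
      refine hH.trans (sup_le ?_ ?_)
      · rw [Subgroup.closure_le]
        intro z hz
        simp only [SetLike.mem_coe, Subgroup.mem_comap, Subgroup.mem_centralizer_singleton_iff]
        exact (hall z (Or.inl hz)).symm
      · intro z hz
        simp only [Subgroup.mem_comap, Subgroup.mem_centralizer_singleton_iff]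
        exact (hall z (Or.inr hz)).symm
    have := hle hh
    simp only [Subgroup.mem_comap, Subgroup.mem_centralizer_singleton_iff] at this
    exact this.symm
  have hKc : ∀ k ∈ K, ∀ h ∈ H, f k * f h = f h * f k := by
    intro k hk h hh
    exact (hcomm h k (hKH (Subgroup.commutator_mem_commutator hh hk))).symm
  have hxc : ∀ h ∈ H, f x * f h = f h * f x := by
    refine hgen x hx ?_
    rintro h ((rfl | rfl) | hk)
    · rfl
    · exact hcomm x h hxy
    · exact (hKc h hk x hx).symm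
  have hyc : ∀ h ∈ H, f y * f h = f h * f y := by
    refine hgen y hy ?_
    rintro h ((rfl | rfl) | hk)
    · exact (hxc y hy).symm
    · rfl
    · exact (hKc h hk y hy).symm
  rw [Subgroup.commutator_le]
  intro g hg h hh
  have : f g * f h = f h * f g := by
    refine hgen g hg ?_ h hh
    rintro z ((rfl | rfl) | hk)
    · exact (hxc g hg).symm
    · exact (hyc g hg).symm
    · exact (hKc z hk g hg).symm
  have h1 : f ⁅g, h⁆ = 1 := by
    rw [map_commutatorElement, commutatorElement_eq_one_iff_mul_comm]; exact this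
  exact (QuotientGroup.eq_one_iff _).1 h1

/-- `H` is cyclic modulo the next term of the lower central series. -/
def TopCyclic (H : Subgroup G) (a : ℕ) : Prop :=
  ∃ x ∈ H, H ≤ Subgroup.zpowers x ⊔ (H ⊓ Γ G (a + 1))

section
variable {H : Subgroup G} [H.Normal] {a : ℕ}

theorem derived_le (h : H ≤ Γ G a) : ⁅H, H⁆ ≤ iterComm H (a + 1) :=
  (Subgroup.commutator_mono le_rfl h).trans (comm_Γ_le a)

theorem derived_le_of_cyclic (hc : TopCyclic H a) : ⁅H, H⁆ ≤ iterComm H (a + 2) := by
  obtain ⟨x, hx, hle⟩ := hc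
  haveI := iterComm_normal H (a + 2)
  refine commutator_le_of_gen (K := H ⊓ Γ G (a + 1)) (x := x) (y := x) ?_ hx hx inf_le_left ?_ ?_
  · refine hle.trans (sup_le_sup_right ?_ _)
    rw [Subgroup.zpowers_eq_closure]
    exact Subgroup.closure_mono (by simp)
  · exact (Subgroup.commutator_mono le_rfl inf_le_right).trans (comm_Γ_le (a + 1))
  · simp [commutatorElement_self]

theorem derived_topCyclic (h : H ≤ Γ G a) {x y : G} (hx : x ∈ H) (hy : y ∈ H)
    (hle : H ≤ Subgroup.closure ({x, y} : Set G) ⊔ (H ⊓ Γ G (a + 1))) :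
    TopCyclic ⁅H, H⁆ (2 * a + 1) := by
  have hc : ⁅x, y⁆ ∈ ⁅H, H⁆ := Subgroup.commutator_mem_commutator hx hy
  refine ⟨⁅x, y⁆, hc, ?_⟩
  set N := ⁅H, H⁆ ⊓ Γ G (2 * a + 1 + 1) with hN
  have htop : ⁅H, H⁆ ≤ Γ G (2 * a + 1) := by
    refine (derived_le h).trans ((iterComm_le_Γ h (a + 1)).trans (le_of_eq ?_))
    congr 1
    omega
  haveI hD : (⁅H, H⁆ : Subgroup G).Normal := Subgroup.commutator_normal _ _
  haveI hNn : N.Normal := inferInstance
  have hcen : ∀ g : G, ∀ z ∈ ⁅H, H⁆, ⁅z, g⁆ ∈ N := fun g z hz =>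
    ⟨Subgroup.commutator_le_left ⁅H, H⁆ ⊤
        (Subgroup.commutator_mem_commutator hz (Subgroup.mem_top g)),
      Subgroup.commutator_mem_commutator (htop hz) (Subgroup.mem_top g)⟩
  haveI hM : (Subgroup.zpowers ⁅x, y⁆ ⊔ N).Normal := by
    refine ⟨fun z hz g => ?_⟩
    have hzD : z ∈ ⁅H, H⁆ :=
      (sup_le ((Subgroup.zpowers_le).2 hc) inf_le_left : Subgroup.zpowers ⁅x, y⁆ ⊔ N ≤ ⁅H, H⁆) hz
    have e : g * z * g⁻¹ = ⁅z, g⁆⁻¹ * z := by group
    rw [e]
    exact mul_mem (Subgroup.mem_sup_right (N.inv_mem (hcen g z hzD))) hz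
  refine commutator_le_of_gen (K := H ⊓ Γ G (a + 1)) hle hx hy inf_le_left ?_
    (Subgroup.mem_sup_left (Subgroup.mem_zpowers _))
  refine le_trans (le_inf (Subgroup.commutator_mono le_rfl inf_le_left) ?_) le_sup_right
  refine (Subgroup.commutator_mono le_rfl inf_le_right).trans ?_
  refine (comm_Γ_le (a + 1)).trans ((iterComm_le_Γ h (a + 1 + 1)).trans (le_of_eq ?_))
  congr 1
  omega

end

theorem eq_bot_of_le_comm [Group.IsNilpotent G] {L : Subgroup G}
    (h : L ≤ ⁅L, (⊤ : Subgroup G)⁆) : L = ⊥ := by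
  obtain ⟨c, hc⟩ := Subgroup.nilpotent_iff_lowerCentralSeries.mp ‹Group.IsNilpotent G›
  have hiter : ∀ j, L ≤ (⊤ : Subgroup G).lowerCentralSeries j := by
    intro j
    induction j with
    | zero => exact le_top
    | succ j ih => exact h.trans (Subgroup.commutator_mono ih le_rfl)
  exact le_bot_iff.mp ((hiter c).trans hc.le)

section
variable [Finite G] {p : ℕ} [Fact p.Prime]

theorem exists_level [Group.IsNilpotent G] (H : Subgroup G) (hne : H ≠ ⊥) :
    ∃ a, H ≤ Γ G a ∧ ¬ H ≤ Γ G (a + 1) := by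
  classical
  obtain ⟨c, hc⟩ := Subgroup.nilpotent_iff_lowerCentralSeries.mp ‹Group.IsNilpotent G›
  have hex : ∃ j, ¬ H ≤ Γ G j := ⟨c, fun h => hne (le_bot_iff.1 (h.trans hc.le))⟩
  have hs := Nat.find_spec hex
  rcases hz : Nat.find hex with _ | a
  · rw [hz] at hs; exact absurd le_top hs
  · rw [hz] at hs
    refine ⟨a, ?_, hs⟩
    by_contra hb
    have := Nat.find_min' hex hb
    omega

theorem relIndex_pow (hG : IsPGroup p G) (A B : Subgroup G) : ∃ e, A.relIndex B = p ^ e := by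
  obtain ⟨k, hk⟩ := hG.exists_card_eq
  obtain ⟨m, -, hm⟩ := (Nat.dvd_prime_pow (Fact.out : p.Prime)).mp
    (hk ▸ (Subgroup.relIndex_dvd_card A B).trans (Subgroup.card_subgroup_dvd_card B))
  exact ⟨m, hm⟩

theorem pow_log_le {e f : ℕ} (h : p ^ e = p ^ f) : e = f :=
  Nat.pow_right_injective (Fact.out : p.Prime).two_le h

/-- If `H` has prime index over `H ⊓ Γ (a+1)` it is cyclic modulo that. -/
theorem gen_step (hG : IsPGroup p G) {H K : Subgroup G} (hKH : K ≤ H) {m : ℕ}
    (hm : K.relIndex H = p ^ (m + 1)) :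
    ∃ x ∈ H, ∃ j ≤ m, (Subgroup.zpowers x ⊔ K).relIndex H = p ^ j := by
  have hne : ¬ H ≤ K := by
    intro h
    rw [← Subgroup.relIndex_eq_one, hm] at h
    exact absurd h (Nat.one_lt_pow (by omega) (Fact.out : p.Prime).one_lt).ne'
  obtain ⟨x, hxH, hxK⟩ := SetLike.not_le_iff_exists.1 hne
  obtain ⟨j, hj⟩ := relIndex_pow hG (Subgroup.zpowers x ⊔ K) H
  obtain ⟨i, hi⟩ := relIndex_pow hG K (Subgroup.zpowers x ⊔ K)
  refine ⟨x, hxH, j, ?_, hj⟩
  have hi0 : i ≠ 0 := by
    rintro rfl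
    rw [pow_zero, Subgroup.relIndex_eq_one] at hi
    exact hxK (hi (Subgroup.mem_sup_left (Subgroup.mem_zpowers x)))
  have hmul := Subgroup.relIndex_mul_relIndex K (Subgroup.zpowers x ⊔ K) H le_sup_right
    (sup_le ((Subgroup.zpowers_le).2 hxH) hKH)
  rw [hi, hj, hm, ← pow_add] at hmul
  have := pow_log_le hmul
  omega

/-- The step of Mann's argument. -/
theorem step (hG : IsPGroup p G) (H : Subgroup G) [H.Normal] (a : ℕ) (ha : H ≤ Γ G a)
    (ha' : ¬ H ≤ Γ G (a + 1)) (hne : ⁅H, H⁆ ≠ ⊥) :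
    ∃ e f : ℕ, (⁅H, H⁆ : Subgroup G).relIndex H = p ^ e ∧ a + 1 + f ≤ e ∧ 1 ≤ f ∧
      ⁅H, H⁆ ≤ Γ G (2 * a + 1) ∧
      (TopCyclic H a → ⁅H, H⁆ ≤ Γ G (2 * a + 2)) ∧
      (f = 1 → TopCyclic H a ∨ TopCyclic ⁅H, H⁆ (2 * a + 1)) := by
  classical
  haveI : Group.IsNilpotent G := hG.isNilpotent
  haveI hD : (⁅H, H⁆ : Subgroup G).Normal := Subgroup.commutator_normal _ _
  set L := (⁅H, H⁆ : Subgroup G) with hL
  set K := H ⊓ Γ G (a + 1) with hK
  have hKH : K ≤ H := inf_le_left
  have hLH : L ≤ H := Subgroup.commutator_le_self H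
  have hL1 : L ≤ Γ G (2 * a + 1) := by
    refine (derived_le ha).trans ((iterComm_le_Γ ha (a + 1)).trans (le_of_eq ?_))
    congr 1
    omega
  have hL2 : TopCyclic H a → L ≤ Γ G (2 * a + 2) := by
    intro hc
    refine (derived_le_of_cyclic hc).trans ((iterComm_le_Γ ha (a + 2)).trans (le_of_eq ?_))
    congr 1
    omega
  have hLK : L ≤ K :=
    le_inf hLH (hL1.trans ((⊤ : Subgroup G).lowerCentralSeries_antitone (by omega)))
  obtain ⟨e, he⟩ := relIndex_pow hG L H
  obtain ⟨d, hd⟩ := relIndex_pow hG K H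
  obtain ⟨g, hg⟩ := relIndex_pow hG L K
  have hedg : e = d + g := by
    have hmul := Subgroup.relIndex_mul_relIndex L K H hLK hKH
    rw [he, hd, hg, ← pow_add] at hmul
    have := pow_log_le hmul
    omega
  have hd0 : d ≠ 0 := by
    rintro rfl
    rw [pow_zero, Subgroup.relIndex_eq_one] at hd
    exact ha' (hd.trans inf_le_right)
  have hdc : d = 1 → TopCyclic H a := by
    rintro rfl
    obtain ⟨x, hx, j, hj, hj'⟩ := gen_step hG hKH (m := 0) hd
    obtain rfl : j = 0 := by omega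
    rw [pow_zero, Subgroup.relIndex_eq_one] at hj'
    exact ⟨x, hx, hj'⟩
  -- `H'` lies deep in the iterated commutators of `H`
  have hdeep : ∀ r, L ≤ iterComm H r → r ≤ g + 1 := by
    intro r hr
    by_contra hlt
    have hX : iterComm H (g + 1) ≤ L := by
      refine le_trans ?_ (iterComm_le_of_index Fact.out K L hLK hg)
      rw [Nat.add_comm, ← iterComm_add H 1 g]
      refine iterComm_mono (le_inf (iterComm_antitone H (Nat.zero_le 1)) ?_) g
      exact iterComm_le_Γ ha 1
    apply hne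
    refine eq_bot_of_le_comm (hr.trans ?_)
    refine (iterComm_antitone H (show g + 1 + 1 ≤ r by omega)).trans ?_
    exact Subgroup.commutator_mono hX le_rfl
  by_cases hc : TopCyclic H a
  · refine ⟨e, d, he, ?_, by omega, hL1, hL2, fun _ => Or.inl hc⟩
    have := hdeep (a + 2) (derived_le_of_cyclic hc)
    omega
  · have hd1 : d ≠ 1 := fun h => hc (hdc h)
    refine ⟨e, d - 1, he, ?_, by omega, hL1, hL2, fun hf => Or.inr ?_⟩
    · have := hdeep (a + 1) (derived_le ha)
      omega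
    have hd2 : d = 1 + 1 := by omega
    subst hd2
    obtain ⟨x, hx, j, hj, hj'⟩ := gen_step hG hKH (m := 1) hd
    have hle : Subgroup.zpowers x ⊔ K ≤ H := sup_le ((Subgroup.zpowers_le).2 hx) hKH
    obtain rfl : j = 1 := by
      rcases j with _ | j
      · rw [pow_zero, Subgroup.relIndex_eq_one] at hj'
        exact absurd ⟨x, hx, hj'⟩ hc
      · omega
    obtain ⟨y, hy, i, hi, hi'⟩ := gen_step hG hle (m := 0) hj'
    obtain rfl : i = 0 := by omega
    rw [pow_zero, Subgroup.relIndex_eq_one] at hi'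
    refine derived_topCyclic ha hx hy (hi'.trans ?_)
    refine sup_le ((Subgroup.zpowers_le).2 (Subgroup.mem_sup_left
      (Subgroup.subset_closure (by simp)))) (sup_le ((Subgroup.zpowers_le).2
        (Subgroup.mem_sup_left (Subgroup.subset_closure (by simp)))) le_sup_right)

end

end Cfsg.Agent.H68.PG.Mann
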